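import Cfsg.Agent.H668.Five.Rows
import Cfsg.Agent.H795.NCritLie
import Cfsg.Agent.H129.FE.Grp
import Cfsg.Agent.H412.OT.Defs
import Cfsg.Prelude.Def_Classification2

/-!
# S4874, rows `F₄`, `E₆`, `E₇`, `E₈`, `²E₆` (helper505)

`q` even: `v = x_a(1) x_b(1)` for an `A₂` system `a, b`, centralized by the `A₄` in another `A₂` system.
`q` odd: `v = n_a(1)`, centralized by the root subgroups of an orthogonal root.
-/

set_option autoImplicit false
set_option linter.unusedSectionVars false

namespace Cfsg.Agent.H505.Five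

open Cfsg Cfsg.Lie Cfsg.Agent.H668.Five Cfsg.Agent.ChevalleyStructure Cfsg.Agent.ChevalleyStructure.Elts
open Cfsg.Agent.ChevalleyStructure.SL2Hom (up lo)
open Cfsg.Agent.H795.NCrit (xG_commute ph ph_up ph_lo)

universe u v

section abstract_

variable {G : Type*} [Group G] [Finite G]

/-- A centralizer containing `A₄`. -/
theorem nn_of_a4 {v y z h : G} (hy : y ^ 2 = 1) (hz : z ^ 2 = 1) (hyz : y * z = z * y) (hh : h ^ 3 = 1)
    (h1 : h * y * h⁻¹ = y * z) (h2 : h * z * h⁻¹ = y) (hne : y ≠ z) (hvy : y * v = v * y)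
    (hvz : z * v = v * z) (hvh : h * v = v * h) : NN v := by
  have hle : ∀ g ∈ Subgroup.closure ({y, z, h} : Set G), g * v = v * g := by
    intro g hg
    have h3 : Subgroup.closure ({y, z, h} : Set G) ≤ Subgroup.centralizer ({v} : Set G) := by
      rw [Subgroup.closure_le]
      intro x hx
      rw [SetLike.mem_coe, Subgroup.mem_centralizer_singleton_iff]
      simp only [Set.mem_insert_iff, Set.mem_singleton_iff] at hx
      rcases hx with rfl | rfl | rfl
      · exact hvy
      · exact hvz
      · exact hvh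
    exact Subgroup.mem_centralizer_singleton_iff.1 (h3 hg)
  refine NN.of_le (K := Subgroup.closure ({y, z, h} : Set G)) ?_ hle
  have my : y ∈ Subgroup.closure ({y, z, h} : Set G) := Subgroup.subset_closure (by simp)
  have mz : z ∈ Subgroup.closure ({y, z, h} : Set G) := Subgroup.subset_closure (by simp)
  have mh : h ∈ Subgroup.closure ({y, z, h} : Set G) := Subgroup.subset_closure (by simp)
  set K := Subgroup.closure ({y, z, h} : Set G) with hK
  let y' : K := ⟨y, my⟩
  let z' : K := ⟨z, mz⟩
  let h' : K := ⟨h, mh⟩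
  have hy' : y' * y' = 1 := Subtype.ext (by rw [← pow_two]; exact hy)
  have hz' : z' * z' = 1 := Subtype.ext (by rw [← pow_two]; exact hz)
  have hyz' : z' * y' = y' * z' := Subtype.ext hyz.symm
  -- the four group
  let Q : Subgroup K :=
    { carrier := {1, y', z', y' * z'}
      one_mem' := by simp
      mul_mem' := by
        have e1 : y' * (y' * z') = z' := by rw [← mul_assoc, hy', one_mul]
        have e2 : z' * (y' * z') = y' := by rw [← mul_assoc, hyz', mul_assoc, hz', mul_one]
        have e3 : y' * z' * y' = z' := by rw [mul_assoc, hyz', e1]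
        have e4 : y' * z' * z' = y' := by rw [mul_assoc, hz', mul_one]
        have e5 : y' * z' * (y' * z') = 1 := by rw [mul_assoc, e2, hy']
        intro a b ha hb
        simp only [Set.mem_insert_iff, Set.mem_singleton_iff] at ha hb ⊢
        rcases ha with rfl | rfl | rfl | rfl <;> rcases hb with rfl | rfl | rfl | rfl <;>
          simp [e1, e2, e3, e4, e5, hy', hz', hyz']
      inv_mem' := by
        have i1 : y'⁻¹ = y' := inv_eq_of_mul_eq_one_right hy'
        have i2 : z'⁻¹ = z' := inv_eq_of_mul_eq_one_right hz'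
        intro a ha
        simp only [Set.mem_insert_iff, Set.mem_singleton_iff] at ha ⊢
        rcases ha with rfl | rfl | rfl | rfl <;> simp [i1, i2, hyz'] }
  have hQ : ∀ x : K, x ∈ Q ↔ x = 1 ∨ x = y' ∨ x = z' ∨ x = y' * z' := fun x => Iff.rfl
  have hh' : h' ^ 3 = 1 := Subtype.ext hh
  have c1 : h' * y' * h'⁻¹ = y' * z' := Subtype.ext h1
  have c2 : h' * z' * h'⁻¹ = y' := Subtype.ext h2
  refine not_compl_of_act Q ?_ h' ?_ ?_ (a := y') ((hQ _).2 (Or.inr (Or.inl rfl))) ?_
  · intro x
    refine ⟨1, Subtype.ext ?_⟩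
    have hx := (hQ x.1).1 x.2
    rw [pow_one, pow_two]
    show x.1 * x.1 = 1
    rcases hx with h | h | h | h <;> rw [h]
    · rw [one_mul]
    · exact hy'
    · exact hz'
    · rw [mul_assoc, ← mul_assoc z', hyz', mul_assoc y' z' z', hz', mul_one, hy']
  · exact Odd.of_dvd_nat (by decide : Odd 3) (orderOf_dvd_of_pow_eq_one hh')
  · intro a ha
    rw [hQ] at ha ⊢
    rcases ha with rfl | rfl | rfl | rfl
    · left; group
    · right; right; right; exact c1
    · right; left; exact c2
    · right; right; left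
      have : h' * (y' * z') * h'⁻¹ = (h' * y' * h'⁻¹) * (h' * z' * h'⁻¹) := by group
      rw [this, c1, c2, mul_assoc, hyz', ← mul_assoc, hy', one_mul]
  · intro he
    have : h' * y' * h'⁻¹ = y' := by rw [he, mul_inv_cancel_right]
    rw [c1] at this
    have h3 : z' = 1 := by
      have := mul_left_cancel (a := y') (this.trans (mul_one y').symm)
      exact this
    rw [h3, mul_one, mul_inv_cancel] at c2
    exact hne (congrArg Subtype.val (c2.symm.trans h3.symm))

/-- a group generated by elements of odd order, of even order, has no normal `2`-complement -/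
theorem not_compl_of_gen {S : Set G} (hS : Subgroup.closure S = ⊤) (hodd : ∀ s ∈ S, Odd (orderOf s))
    (h2 : 2 ∣ Nat.card G) : ¬ HasNormalPComplement 2 G := by
  intro hX
  obtain ⟨N, hN, hpN, k, hk⟩ :=
    OddOrderLocal.NilpotentQuotient.exists_of_hasNormalPComplement hX
  have h1 : S ⊆ N := by
    intro h hs
    have h1 : h ^ (2 ^ k) ∈ N := by
      rw [← hk]
      exact Subgroup.pow_index_mem N h
    have h2 : Nat.Coprime (2 ^ k) (orderOf h) :=
      Nat.Coprime.pow_left k (Nat.coprime_two_left.2 (hodd h hs))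
    have h3 : h ∈ Subgroup.zpowers (h ^ (2 ^ k)) := by
      obtain ⟨m, hm⟩ := exists_pow_eq_self_of_coprime h2
      exact Subgroup.mem_zpowers_iff.2 ⟨(m : ℤ), by rw [zpow_natCast]; exact hm⟩
    exact (Subgroup.zpowers_le.2 h1) h3
  have h3 : N = ⊤ := by
    rw [eq_top_iff, ← hS, Subgroup.closure_le]
    exact h1
  apply hpN
  rw [h3, Nat.card_congr Subgroup.topEquiv.toEquiv]
  exact h2

/-- A centralizer containing an even order group generated by elements of odd order. -/
theorem nn_of_gen {v y z w : G} (hy : Odd (orderOf y)) (hz : Odd (orderOf z))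
    (hw : w ∈ Subgroup.closure ({y, z} : Set G)) (hw2 : 2 ∣ orderOf w) (hvy : y * v = v * y)
    (hvz : z * v = v * z) : NN v := by
  refine NN.of_le (K := Subgroup.closure ({y, z} : Set G)) ?_ ?_
  · have my : y ∈ Subgroup.closure ({y, z} : Set G) := Subgroup.subset_closure (by simp)
    have mz : z ∈ Subgroup.closure ({y, z} : Set G) := Subgroup.subset_closure (by simp)
    refine not_compl_of_gen (S := {⟨y, my⟩, ⟨z, mz⟩}) ?_ ?_ ?_
    · rw [eq_top_iff]
      rintro ⟨x, hx⟩ -
      induction hx using Subgroup.closure_induction with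
      | mem x hx =>
        simp only [Set.mem_insert_iff, Set.mem_singleton_iff] at hx
        rcases hx with rfl | rfl
        · exact Subgroup.subset_closure (by simp)
        · exact Subgroup.subset_closure (by simp)
      | one => exact one_mem _
      | mul a b _ _ ha hb => exact mul_mem ha hb
      | inv a _ ha => exact inv_mem ha
    · intro s hs
      simp only [Set.mem_insert_iff, Set.mem_singleton_iff] at hs
      rcases hs with rfl | rfl
      · rwa [Subgroup.orderOf_mk]
      · rwa [Subgroup.orderOf_mk]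
    · have := orderOf_dvd_natCard (⟨w, hw⟩ : ↥(Subgroup.closure ({y, z} : Set G)))
      rw [Subgroup.orderOf_mk] at this
      exact hw2.trans this
  · intro g hg
    have h3 : Subgroup.closure ({y, z} : Set G) ≤ Subgroup.centralizer ({v} : Set G) := by
      rw [Subgroup.closure_le]
      intro x hx
      rw [SetLike.mem_coe, Subgroup.mem_centralizer_singleton_iff]
      simp only [Set.mem_insert_iff, Set.mem_singleton_iff] at hx
      rcases hx with rfl | rfl
      · exact hvy
      · exact hvz
    exact Subgroup.mem_centralizer_singleton_iff.1 (h3 hg)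

end abstract_

section chev

variable {D : ChevalleyDatum} (hD : InList D) {F : Type v} [Field F]

/-- commutation of root elements as a check -/
def cmB (D : ChevalleyDatum) (r s : ℕ) : Bool :=
  decide (r < D.nroots) && decide (s < D.nroots) && decide (s ≠ r) && decide (s ≠ D.neg r) &&
    decide (D.commTerms r s = [])

/-- `[x_s(u), x_r(t)] = x_k(± t u)` -/
def cmT (D : ChevalleyDatum) (r s k : ℕ) : Bool :=
  decide (r < D.nroots) && decide (s < D.nroots) && decide (k < D.nroots) && decide (s ≠ r) &&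
    decide (s ≠ D.neg r) &&
    (decide (D.commTerms r s = [(k, 1, 1, 1)]) || decide (D.commTerms r s = [(k, -1, 1, 1)]))

include hD in
theorem comm_of {r s : ℕ} (h : cmB D r s = true) (t u : F) :
    xG hD r t * xG hD s u = xG hD s u * xG hD r t := by
  simp only [cmB, Bool.and_eq_true, decide_eq_true_eq] at h
  obtain ⟨⟨⟨⟨h1, h2⟩, h3⟩, h4⟩, h5⟩ := h
  exact xG_commute hD h1 h2 h3 h4 h5 t u

theorem two_eq_zero [CharP F 2] : (2 : F) = 0 := by
  have := CharP.cast_eq_zero F 2
  exact_mod_cast this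

theorem neg_one_eq [CharP F 2] : (-1 : F) = 1 := by
  have h := two_eq_zero (F := F)
  linear_combination -h

include hD in
/-- in characteristic two: `x_s x_r = x_r x_s x_k` (parameters `1`) -/
theorem comm_two [CharP F 2] {r s k : ℕ} (h : cmT D r s k = true) :
    xG hD s (1 : F) * xG hD r 1 = xG hD r 1 * xG hD s 1 * xG hD k 1 := by
  simp only [cmT, Bool.and_eq_true, Bool.or_eq_true, decide_eq_true_eq] at h
  obtain ⟨⟨⟨⟨⟨h1, h2⟩, h3⟩, h4⟩, h5⟩, h6⟩ := h
  apply Units.ext
  have h7 := Cfsg.Agent.S1025.result (F := F) D hD r s h1 h2 h4 h5 1 1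
  rw [Units.val_mul, Units.val_mul, Units.val_mul, coe_xG, coe_xG, coe_xG, h7]
  congr 1
  have h8 := neg_one_eq (F := F)
  rcases h6 with h6 | h6 <;>
    simp [ChevalleyDatum.commWord, h6, Elts.wordMat_cons, Elts.wordMat_nil, h8]

include hD in
theorem sq_two [CharP F 2] (r : ℕ) : xG hD r (1 : F) * xG hD r 1 = 1 := by
  rw [xG_add, one_add_one_eq_two, two_eq_zero, xG_zero]


/-- the root element `x_r(1)` in the group -/
def X (hD : InList D) (F : Type v) [Field F] (r : ℕ) : ↥(D.group F) := ⟨xG hD r 1, xG_mem_group hD r 1⟩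

theorem X_comm {r s : ℕ} (h : cmB D r s = true) : X hD F r * X hD F s = X hD F s * X hD F r :=
  Subtype.ext (comm_of hD h 1 1)

theorem X_two [CharP F 2] {r s k : ℕ} (h : cmT D r s k = true) :
    X hD F s * X hD F r = X hD F r * X hD F s * X hD F k :=
  Subtype.ext (comm_two hD h)

theorem X_sq [CharP F 2] (r : ℕ) : X hD F r * X hD F r = 1 := Subtype.ext (sq_two hD r)

theorem X_ne_one {r : ℕ} (hr : r < D.nroots) : X hD F r ≠ 1 := by
  intro h
  have h1 : xG hD r (1 : F) = 1 := congrArg Subtype.val h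
  rw [xG_eq_one_iff hD hr] at h1
  exact one_ne_zero h1

theorem sl_three [CharP F 2] : (up (1 : F) * lo (1 : F)) ^ 3 = 1 := by
  have h2 := two_eq_zero (F := F)
  apply Subtype.ext
  rw [pow_succ, pow_two, Matrix.SpecialLinearGroup.coe_mul, Matrix.SpecialLinearGroup.coe_mul,
    Matrix.SpecialLinearGroup.coe_mul, Matrix.SpecialLinearGroup.coe_one]
  show !![(1 : F), 1; 0, 1] * !![(1 : F), 0; 1, 1] * (!![(1 : F), 1; 0, 1] * !![(1 : F), 0; 1, 1]) *
    (!![(1 : F), 1; 0, 1] * !![(1 : F), 0; 1, 1]) = 1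
  have a1 : (13 : F) = 1 := by linear_combination (6 : F) * h2
  have a2 : (8 : F) = 0 := by linear_combination (4 : F) * h2
  have a3 : (5 : F) = 1 := by linear_combination (2 : F) * h2
  rw [Matrix.mul_fin_two, Matrix.mul_fin_two, Matrix.mul_fin_two, Matrix.one_fin_two]
  ext i j
  fin_cases i <;> fin_cases j <;> norm_num
  · exact a1
  · exact a2
  · exact a2
  · exact a3

/-- the element of order four of `SL₂` -/
theorem sl_four : (up (1 : F) * (lo (-1 : F) * up (1 : F))) ^ 4 = 1 := by
  apply Subtype.ext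
  rw [pow_succ, pow_succ, pow_two, Matrix.SpecialLinearGroup.coe_mul, Matrix.SpecialLinearGroup.coe_mul,
    Matrix.SpecialLinearGroup.coe_mul, Matrix.SpecialLinearGroup.coe_mul, Matrix.SpecialLinearGroup.coe_mul,
    Matrix.SpecialLinearGroup.coe_one]
  have e : (!![(1 : F), 1; 0, 1] * (!![(1 : F), 0; -1, 1] * !![(1 : F), 1; 0, 1])) = !![(0 : F), 1; -1, 0] := by
    rw [Matrix.mul_fin_two, Matrix.mul_fin_two]
    ext i j
    fin_cases i <;> fin_cases j <;> simp
  show (!![(1 : F), 1; 0, 1] * (!![(1 : F), 0; -1, 1] * !![(1 : F), 1; 0, 1])) *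
    (!![(1 : F), 1; 0, 1] * (!![(1 : F), 0; -1, 1] * !![(1 : F), 1; 0, 1])) *
    (!![(1 : F), 1; 0, 1] * (!![(1 : F), 0; -1, 1] * !![(1 : F), 1; 0, 1])) *
    (!![(1 : F), 1; 0, 1] * (!![(1 : F), 0; -1, 1] * !![(1 : F), 1; 0, 1])) = 1
  rw [e, Matrix.mul_fin_two, Matrix.mul_fin_two, Matrix.mul_fin_two, Matrix.one_fin_two]
  ext i j
  fin_cases i <;> fin_cases j <;> simp

include hD in
/-- **`q` even** -/
theorem good_even [Finite F] [CharP F 2] {a b k c d m e : ℕ} (he : D.neg d = e) (h1 : cmT D a b k = true)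
    (h2 : cmB D b k = true) (h3 : cmT D c d m = true) (h4 : cmB D c e = true) (h5 : cmT D m e c = true)
    (h6 : cmB D m d = true) (h7 : cmB D c m = true)
    (h8 : (cmB D a c && cmB D a m && cmB D a d && cmB D a e && cmB D b c && cmB D b m && cmB D b d &&
      cmB D b e) = true) : Good ↥(D.group F) := by
  classical
  have hfin : Finite ↥(D.group F) := by
    have : Finite (GL D.Idx F) := by
      have : Finite (Matrix D.Idx D.Idx F) := inferInstance
      infer_instance
    infer_instance
  simp only [Bool.and_eq_true] at h8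
  obtain ⟨⟨⟨⟨⟨⟨⟨h81, h82⟩, h83⟩, h84⟩, h85⟩, h86⟩, h87⟩, h88⟩ := h8
  have hk : k < D.nroots := by
    simp only [cmT, Bool.and_eq_true, decide_eq_true_eq] at h1
    exact h1.1.1.1.2
  have hd : d < D.nroots := by
    simp only [cmT, Bool.and_eq_true, decide_eq_true_eq] at h3
    exact h3.1.1.1.1.2
  -- `v`
  have hv2 : (X hD F a * X hD F b) ^ 2 = X hD F k := by
    rw [pow_two]
    calc X hD F a * X hD F b * (X hD F a * X hD F b) = X hD F a * (X hD F b * X hD F a) * X hD F b := by group
      _ = (X hD F a * X hD F a) * (X hD F b * X hD F k) * X hD F b := by rw [X_two hD h1]; group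
      _ = X hD F b * X hD F k * X hD F b := by rw [X_sq, one_mul]
      _ = X hD F k * (X hD F b * X hD F b) := by rw [X_comm hD h2]; group
      _ = X hD F k := by rw [X_sq, mul_one]
  have hv : orderOf (X hD F a * X hD F b) = 4 := by
    have : orderOf (X hD F a * X hD F b) = 2 ^ (1 + 1) := by
      apply orderOf_eq_prime_pow
      · rw [pow_one, hv2]
        exact X_ne_one hD hk
      · rw [pow_add, pow_one, pow_mul, hv2, pow_two]
        exact X_sq hD k
    simpa using this
  -- `h`
  let h : ↥(D.group F) := X hD F d * X hD F e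
  have hh : h ^ 3 = 1 := by
    apply Subtype.ext
    have e1 : (h : GL D.Idx F) = ph hD hd F (up 1 * lo 1) := by
      rw [map_mul, ph_up, ph_lo, he]
      rfl
    rw [Subgroup.coe_pow, e1, ← map_pow, sl_three, map_one]
    rfl
  have hi : ∀ r, (X hD F r)⁻¹ = X hD F r := fun r => inv_eq_of_mul_eq_one_right (X_sq hD r)
  have c1 : h * X hD F c * h⁻¹ = X hD F c * X hD F m := by
    calc h * X hD F c * h⁻¹ = X hD F d * (X hD F e * X hD F c) * (X hD F e)⁻¹ * (X hD F d)⁻¹ := by
          simp only [h]; group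
      _ = (X hD F d * X hD F c) * (X hD F d)⁻¹ := by rw [← X_comm hD h4]; group
      _ = X hD F c * (X hD F d * X hD F m) * (X hD F d)⁻¹ := by rw [X_two hD h3]; group
      _ = X hD F c * X hD F m := by rw [← X_comm hD h6]; group
  have c2 : h * X hD F m * h⁻¹ = X hD F c := by
    calc h * X hD F m * h⁻¹ = X hD F d * (X hD F e * X hD F m) * (X hD F e)⁻¹ * (X hD F d)⁻¹ := by
          simp only [h]; group
      _ = X hD F d * X hD F m * (X hD F e * X hD F c) * (X hD F e)⁻¹ * (X hD F d)⁻¹ := by
          rw [X_two hD h5]; group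
      _ = (X hD F d * X hD F m) * X hD F c * (X hD F d)⁻¹ := by rw [← X_comm hD h4]; group
      _ = X hD F m * (X hD F d * X hD F c) * (X hD F d)⁻¹ := by rw [← X_comm hD h6]; group
      _ = (X hD F m * X hD F c) * (X hD F d * X hD F m) * (X hD F d)⁻¹ := by rw [X_two hD h3]; group
      _ = X hD F c * (X hD F m * X hD F m) := by rw [← X_comm hD h6, ← X_comm hD h7]; group
      _ = X hD F c := by rw [X_sq, mul_one]
  refine Or.inl ⟨X hD F a * X hD F b, hv, nn_of_a4 (y := X hD F c) (z := X hD F m) (h := h) ?_ ?_ ?_ hh c1 c2 ?_ ?_ ?_ ?_⟩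
  · rw [pow_two]; exact X_sq hD c
  · rw [pow_two]; exact X_sq hD m
  · exact X_comm hD h7
  · intro hcm
    rw [hcm, X_sq] at c1
    have : X hD F m = 1 := by
      have := mul_inv_eq_one.1 c1
      exact mul_left_cancel (a := h) (this.trans (mul_one h).symm)
    have hm : m < D.nroots := by
      simp only [cmT, Bool.and_eq_true, decide_eq_true_eq] at h3
      exact h3.1.1.1.2
    exact X_ne_one hD hm this
  · rw [← mul_assoc, ← X_comm hD h81, mul_assoc, ← X_comm hD h85, mul_assoc]
  · rw [← mul_assoc, ← X_comm hD h82, mul_assoc, ← X_comm hD h86, mul_assoc]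
  · show X hD F d * X hD F e * (X hD F a * X hD F b) = X hD F a * X hD F b * (X hD F d * X hD F e)
    calc X hD F d * X hD F e * (X hD F a * X hD F b) = X hD F d * (X hD F e * X hD F a) * X hD F b := by group
      _ = X hD F d * X hD F a * (X hD F e * X hD F b) := by rw [← X_comm hD h84]; group
      _ = (X hD F d * X hD F a) * X hD F b * X hD F e := by rw [← X_comm hD h88]; group
      _ = X hD F a * (X hD F d * X hD F b) * X hD F e := by rw [← X_comm hD h83]; group
      _ = _ := by rw [← X_comm hD h87]; group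


/-! ### `q` odd -/

theorem xG_pow (r : ℕ) (t : F) (n : ℕ) : xG hD r t ^ n = xG hD r (n * t) := by
  induction n with
  | zero => rw [pow_zero, Nat.cast_zero, zero_mul, xG_zero]
  | succ n ih => rw [pow_succ, ih, xG_add, Nat.cast_succ, add_mul, one_mul]

include hD in
theorem odd_X {p : ℕ} [CharP F p] (hp : Odd p) (r : ℕ) : Odd (orderOf (X hD F r)) := by
  refine Odd.of_dvd_nat hp (orderOf_dvd_of_pow_eq_one (Subtype.ext ?_))
  rw [Subgroup.coe_pow]
  show xG hD r (1 : F) ^ p = 1
  rw [xG_pow, CharP.cast_eq_zero, zero_mul, xG_zero]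

/-- `n_r(1)` in the group -/
def Y (hD : InList D) (F : Type v) [Field F] (r : ℕ) : ↥(D.group F) := ⟨nG hD r 1, nG_mem_group hD r 1⟩

theorem Y_eq (r : ℕ) : Y hD F r = X hD F r * ((X hD F (D.neg r))⁻¹ * X hD F r) := by
  apply Subtype.ext
  show nG hD r (1 : F) = xG hD r 1 * ((xG hD (D.neg r) 1)⁻¹ * xG hD r 1)
  rw [nG_def, xG_inv, inv_one]

theorem Y_four {r : ℕ} (hr : r < D.nroots) : Y hD F r ^ 4 = 1 := by
  apply Subtype.ext
  rw [Subgroup.coe_pow]
  have e : ((Y hD F r : ↥(D.group F)) : GL D.Idx F) = ph hD hr F (up 1 * (lo (-1) * up 1)) := by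
    rw [map_mul, map_mul, ph_up, ph_lo]
    show nG hD r (1 : F) = _
    rw [nG_def, inv_one]
  rw [e, ← map_pow, sl_four, map_one]
  rfl

theorem Y_two {r s : ℕ} (hr : r < D.nroots) (hs : s < D.nroots) (ho : Odd (H412.OT.pr D r s))
    (h2 : (2 : F) ≠ 0) : Y hD F r ^ 2 ≠ 1 := by
  intro h
  have h1 : nG hD r (1 : F) * nG hD r 1 = 1 := by
    have := congrArg Subtype.val h
    rw [pow_two] at this
    exact this
  have h3 : nG hD r (-1 : F) = (nG hD r 1)⁻¹ := by
    rw [eq_inv_iff_mul_eq_one, nG_def, nG_def]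
    have e1 : ((-1 : F))⁻¹ = -1 := by rw [inv_neg, inv_one]
    rw [e1, neg_neg, inv_one]
    have e2 : ∀ k (t : F), xG hD k (-t) = (xG hD k t)⁻¹ := fun k t => (xG_inv hD k t).symm
    rw [e2, e2]
    group
  have h4 : hG hD r (-1 : F) = 1 := by
    rw [hG_def, h3, ← mul_inv_rev, h1, inv_one]
  have h5 := H412.OT.hG_conj_xG hD hr hs (c := (-1 : F)) (neg_ne_zero.2 one_ne_zero) 1
  rw [h4, one_mul, inv_one, mul_one, mul_one, ho.neg_one_zpow] at h5
  have h6 := xG_injective hD hs h5
  apply h2
  linear_combination h6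

theorem orderOf_Y {r s : ℕ} (hr : r < D.nroots) (hs : s < D.nroots) (ho : Odd (H412.OT.pr D r s))
    (h2 : (2 : F) ≠ 0) : orderOf (Y hD F r) = 4 := by
  have : orderOf (Y hD F r) = 2 ^ (1 + 1) := by
    apply orderOf_eq_prime_pow
    · rw [pow_one]
      exact Y_two hD hr hs ho h2
    · exact Y_four hD hr
  simpa using this

include hD in
/-- **`q` odd** -/
theorem good_odd [Finite F] {p : ℕ} [CharP F p] (hp : Odd p) {a c s s' : ℕ} (ha : a < D.nroots)
    (hc : c < D.nroots) (hs : s < D.nroots) (hs' : s' < D.nroots) (ho : Odd (H412.OT.pr D a s))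
    (ho' : Odd (H412.OT.pr D c s'))
    (h8 : (cmB D c a && cmB D c (D.neg a) && cmB D (D.neg c) a && cmB D (D.neg c) (D.neg a)) = true) :
    Good ↥(D.group F) := by
  have h2 : (2 : F) ≠ 0 := by
    intro h0
    have h1 : ((2 : ℕ) : F) = 0 := by exact_mod_cast h0
    rw [CharP.cast_eq_zero_iff F p] at h1
    rcases (Nat.dvd_prime Nat.prime_two).1 h1 with h3 | h3
    · exact CharP.char_ne_one F p h3
    · rw [h3] at hp
      exact absurd hp (by decide)
  have hfin : Finite ↥(D.group F) := by
    have : Finite (GL D.Idx F) := by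
      have : Finite (Matrix D.Idx D.Idx F) := inferInstance
      infer_instance
    infer_instance
  simp only [Bool.and_eq_true] at h8
  obtain ⟨⟨⟨h81, h82⟩, h83⟩, h84⟩ := h8
  refine Or.inl ⟨Y hD F a, orderOf_Y hD ha hs ho h2, nn_of_gen (y := X hD F c) (z := X hD F (D.neg c))
    (w := Y hD F c) (odd_X hD hp c) (odd_X hD hp _) ?_ ?_ ?_ ?_⟩
  · rw [Y_eq]
    have m1 : X hD F c ∈ Subgroup.closure ({X hD F c, X hD F (D.neg c)} : Set ↥(D.group F)) :=
      Subgroup.subset_closure (by simp)
    have m2 : X hD F (D.neg c) ∈ Subgroup.closure ({X hD F c, X hD F (D.neg c)} : Set ↥(D.group F)) :=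
      Subgroup.subset_closure (by simp)
    exact mul_mem m1 (mul_mem (inv_mem m2) m1)
  · rw [orderOf_Y hD hc hs' ho' h2]
    norm_num
  · have c1 : Commute (X hD F c) (X hD F a) := X_comm hD h81
    have c2 : Commute (X hD F c) (X hD F (D.neg a)) := X_comm hD h82
    rw [Y_eq]
    exact (c1.mul_right (c2.inv_right.mul_right c1)).eq
  · have c1 : Commute (X hD F (D.neg c)) (X hD F a) := X_comm hD h83
    have c2 : Commute (X hD F (D.neg c)) (X hD F (D.neg a)) := X_comm hD h84
    rw [Y_eq]
    exact (c1.mul_right (c2.inv_right.mul_right c1)).eq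

end chev

end Cfsg.Agent.H505.Five
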