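import Cfsg.Agent.H505.Five.Exc

/-!
# S4874, rows `F₄`, `E₆`, `E₇`, `E₈`, `²E₆` (helper505)
-/

set_option autoImplicit false

namespace Cfsg.Agent.H505.Five

open Cfsg Cfsg.Lie Cfsg.Agent.H668.Five Cfsg.Agent.ChevalleyStructure Cfsg.Agent.ChevalleyStructure.Elts

theorem good_chev {D : ChevalleyDatum} (hD : InList D) {a b k c d m e : ℕ} (he : D.neg d = e)
    (h1 : cmT D a b k = true)
    (h2 : cmB D b k = true) (h3 : cmT D c d m = true) (h4 : cmB D c e = true) (h5 : cmT D m e c = true)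
    (h6 : cmB D m d = true) (h7 : cmB D c m = true)
    (h8 : (cmB D a c && cmB D a m && cmB D a d && cmB D a e && cmB D b c && cmB D b m && cmB D b d &&
      cmB D b e) = true) {a' c' s s' : ℕ} (ha : a' < D.nroots)
    (hc : c' < D.nroots) (hs : s < D.nroots) (hs' : s' < D.nroots) (ho : Odd (H412.OT.pr D a' s))
    (ho' : Odd (H412.OT.pr D c' s'))
    (h8' : (cmB D c' a' && cmB D c' (D.neg a') && cmB D (D.neg c') a' && cmB D (D.neg c') (D.neg a')) = true)
    (F : Type) [Field F] [Fintype F] : Good ↥(D.group F) := by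
  obtain ⟨p, hp⟩ := CharP.exists F
  obtain ⟨k', hpp, -⟩ := FiniteField.card F p
  rcases hpp.eq_two_or_odd' with rfl | hodd
  · exact good_even hD he h1 h2 h3 h4 h5 h6 h7 h8
  · exact good_odd hD hodd ha hc hs hs' ho ho' h8'

theorem inF4 : InList chevF4 := by simp [InList]
theorem inE7 : InList chevE7 := by simp [InList]
theorem inE8 : InList chevE8 := by simp [InList]

theorem good_f4 (F : Type) [Field F] [Fintype F] : Good ↥(chevF4.group F) := by
  refine good_chev inF4 (a := 33) (b := 27) (k := 34) (c := 47) (d := 23) (m := 46) (e := 24)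
    (a' := 33) (c' := 24) (s := 27) (s' := 25) ?_ ?_ ?_ ?_ ?_ ?_ ?_ ?_ ?_ ?_ ?_ ?_ ?_ ?_ ?_ ?_ F <;> decide +kernel

theorem good_e7 (F : Type) [Field F] [Fintype F] : Good ↥(chevE7.group F) := by
  refine good_chev inE7 (a := 93) (b := 73) (k := 94) (c := 66) (d := 64) (m := 67) (e := 61)
    (a' := 93) (c' := 66) (s := 73) (s' := 64) ?_ ?_ ?_ ?_ ?_ ?_ ?_ ?_ ?_ ?_ ?_ ?_ ?_ ?_ ?_ ?_ F <;> decide +kernel

theorem good_e8 (F : Type) [Field F] [Fintype F] : Good ↥(chevE8.group F) := by
  refine good_chev inE8 (a := 162) (b := 135) (k := 163) (c := 126) (d := 123) (m := 127) (e := 116)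
    (a' := 162) (c' := 126) (s := 135) (s' := 123) ?_ ?_ ?_ ?_ ?_ ?_ ?_ ?_ ?_ ?_ ?_ ?_ ?_ ?_ ?_ ?_ F <;> decide +kernel

instance finGroup (D : ChevalleyDatum) (F : Type*) [Field F] [Finite F] : Finite ↥(D.group F) := by
  have : Finite (GL D.Idx F) := by
    have : Finite (Matrix D.Idx D.Idx F) := inferInstance
    infer_instance
  infer_instance

theorem row_f4 {S : Type*} [Group S] [Finite S] (h : Lie.IsoF4 S) : Good S := by
  obtain ⟨F, _, _, ⟨e⟩⟩ := h
  exact (good_f4 F).map e.symm.toMonoidHom e.symm.injective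

theorem row_e7 {S : Type*} [Group S] [Finite S] (h : Lie.IsoE7 S) : Good S := by
  obtain ⟨F, _, _, ⟨e⟩⟩ := h
  exact (good_e7 F).map e.symm.toMonoidHom e.symm.injective

theorem row_e8 {S : Type*} [Group S] [Finite S] (h : Lie.IsoE8 S) : Good S := by
  obtain ⟨F, _, _, ⟨e⟩⟩ := h
  exact (good_e8 F).map e.symm.toMonoidHom e.symm.injective

theorem row_e6 {S : Type*} [Group S] [Finite S] (h : Lie.IsoChevE6 S) : Good S := by
  obtain ⟨F, _, _, ⟨e⟩⟩ := h
  exact ((good_f4 F).map (H129.FE.toE6 F) (H129.FE.toE6_injective F)).map e.symm.toMonoidHom e.symm.injective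

/-- the subfield with `q` elements -/
theorem exists_subfield {K : Type*} [Field K] [Fintype K] {q : ℕ} (hK : Fintype.card K = q ^ 2) :
    ∃ (F : Type) (_ : Field F) (_ : Fintype F), Fintype.card F = q ∧ ∃ f : F →+* K, ∀ t, f t ^ q = f t := by
  classical
  obtain ⟨p, hp⟩ := CharP.exists K
  obtain ⟨k, hpp, hk⟩ := FiniteField.card K p
  have : Fact p.Prime := ⟨hpp⟩
  have hdvd : q ∣ p ^ (k : ℕ) := by
    rw [← hk, hK]
    exact dvd_pow_self q two_ne_zero
  obtain ⟨j, -, rfl⟩ := (Nat.dvd_prime_pow hpp).1 hdvd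
  have hkj : (k : ℕ) = j * 2 := by
    rw [hk, ← pow_mul] at hK
    exact Nat.pow_right_injective hpp.two_le hK
  have hj : j ≠ 0 := by
    rintro rfl
    have := k.pos
    omega
  have : NeZero j := ⟨hj⟩
  let : Algebra (ZMod p) K := ZMod.algebra K p
  have hfr : Module.finrank (ZMod p) K = k := by
    have h1 := Module.card_eq_pow_finrank (K := ZMod p) (V := K)
    rw [ZMod.card, hk] at h1
    exact (Nat.pow_right_injective hpp.two_le h1).symm
  have : Fintype (GaloisField p j) := Fintype.ofFinite _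
  have hc : Fintype.card (GaloisField p j) = p ^ j := by
    rw [← Nat.card_eq_fintype_card, GaloisField.card p j hj]
  refine ⟨GaloisField p j, inferInstance, inferInstance, hc, ?_⟩
  obtain ⟨f⟩ := FiniteField.nonempty_algHom_of_finrank_dvd (F := ZMod p) (K := GaloisField p j)
    (L := K) (by rw [GaloisField.finrank p hj, hfr, hkj]; exact dvd_mul_right _ _)
  refine ⟨f.toRingHom, fun t => ?_⟩
  rw [← map_pow, ← hc, FiniteField.pow_card]

theorem row_2e6 {S : Type*} [Group S] [Finite S] (h : Lie.Iso2E6 S) : Good S := by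
  obtain ⟨K, _, _, q, hq, hK, ⟨e⟩⟩ := h
  obtain ⟨F, _, _, hF, f, hf⟩ := exists_subfield hK
  have hfin : Finite ↥(twistedE6 K q) := by
    have : Finite (GL chevE6.Idx K) := by
      have : Finite (Matrix chevE6.Idx chevE6.Idx K) := inferInstance
      infer_instance
    infer_instance
  exact ((good_f4 F).map (H129.FE.toTE6 f hf) (H129.FE.toTE6_injective f hf)).map e.symm.toMonoidHom
    e.symm.injective

end Cfsg.Agent.H505.Five
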